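import Cfsg.Agent.FFModule.Product
import Cfsg.Agent.TISolvable.Minimal
import Cfsg.Agent.GlaubermanZJ.SylowNormal
import Cfsg.Agent.CharP.PReduced
import Cfsg.Agent.Constrained.HallHigman
import Cfsg.Agent.S0604
import Cfsg.Agent.S0606
import Cfsg.Agent.Eq.Def_PLocal
import Cfsg.Agent.Eq.Def_Local
import Cfsg.Agent.Eq.Def_Transfer
import Cfsg.Agent.Eq.Def_LocalEven

/-!
Failure of Thompson factorization: the action of `J(G)` on the normal closure of `Ω₁(Z(S))` fits the
setting of the structure theorem.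
-/

set_option autoImplicit false

open Cfsg
open scoped commutatorElement Pointwise

namespace CfsgLib.FFModule

universe u

variable {G : Type u} [Group G] {p : ℕ}

/-- The conjugation action on a normal subgroup, inside the semidirect product with its automorphism group. -/
def actionHom (Z : Subgroup G) [Z.Normal] :
    G →* SemidirectProduct ↥Z (MulAut ↥Z) (MonoidHom.id (MulAut ↥Z)) :=
  SemidirectProduct.inr.comp MulAut.conjNormal

/-- The module inside the semidirect product. -/
abbrev actionModule (Z : Subgroup G) [Z.Normal] :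
    Subgroup (SemidirectProduct ↥Z (MulAut ↥Z) (MonoidHom.id (MulAut ↥Z))) :=
  (SemidirectProduct.inl : ↥Z →* _).range

theorem actionHom_conj (Z : Subgroup G) [Z.Normal] (g : G) (z : ↥Z) :
    actionHom Z g * SemidirectProduct.inl z * (actionHom Z g)⁻¹ =
      SemidirectProduct.inl (MulAut.conjNormal g z) := by
  rw [← map_inv (actionHom Z)]
  simp only [actionHom, MonoidHom.comp_apply]
  rw [map_inv MulAut.conjNormal, ← SemidirectProduct.inl_aut]
  rfl

theorem actionHom_eq_one_iff (Z : Subgroup G) [Z.Normal] {g : G} :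
    actionHom Z g = 1 ↔ g ∈ Subgroup.centralizer (Z : Set G) := by
  rw [Subgroup.mem_centralizer_iff]
  constructor
  · intro h z hz
    have h1 := actionHom_conj Z g ⟨z, hz⟩
    rw [h, one_mul, inv_one, mul_one] at h1
    have h2 := congrArg Subtype.val (SemidirectProduct.inl_injective h1)
    rw [MulAut.conjNormal_apply] at h2
    exact (eq_mul_inv_iff_mul_eq.mp h2).symm.symm
  · intro h
    have h1 : MulAut.conjNormal g = (1 : MulAut ↥Z) := by
      refine MulEquiv.ext fun z => Subtype.ext ?_
      rw [MulAut.conjNormal_apply, MulAut.one_apply, ← h z z.2, mul_inv_cancel_right]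
    rw [actionHom, MonoidHom.comp_apply, h1, map_one]

theorem ker_actionHom (Z : Subgroup G) [Z.Normal] :
    (actionHom Z).ker = Subgroup.centralizer (Z : Set G) := by
  ext g
  rw [MonoidHom.mem_ker, actionHom_eq_one_iff]

theorem fixedPts_actionModule (Z B : Subgroup G) [Z.Normal] :
    fixedPts (actionModule Z) (B.map (actionHom Z)) =
      ((Z ⊓ Subgroup.centralizer (B : Set G)).subgroupOf Z).map SemidirectProduct.inl := by
  ext v
  rw [mem_fixedPts]
  constructor
  · rintro ⟨⟨z, rfl⟩, hc⟩
    refine ⟨z, Subgroup.mem_inf.mpr ⟨z.2, Subgroup.mem_centralizer_iff.mpr fun b hb => ?_⟩, rfl⟩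
    have h := hc _ (Subgroup.mem_map_of_mem _ hb)
    rw [← mul_inv_eq_iff_eq_mul, actionHom_conj] at h
    have h2 := congrArg Subtype.val (SemidirectProduct.inl_injective h)
    rw [MulAut.conjNormal_apply] at h2
    exact mul_inv_eq_iff_eq_mul.mp h2
  · rintro ⟨z, hz, rfl⟩
    refine ⟨⟨z, rfl⟩, ?_⟩
    rintro _ ⟨b, hb, rfl⟩
    rw [← mul_inv_eq_iff_eq_mul, actionHom_conj]
    congr 1
    apply Subtype.ext
    rw [MulAut.conjNormal_apply, mul_inv_eq_iff_eq_mul]
    exact Subgroup.mem_centralizer_iff.mp (Subgroup.mem_inf.mp hz).2 b hb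

theorem card_fixedPts_actionModule (Z B : Subgroup G) [Z.Normal] :
    Nat.card ↥(fixedPts (actionModule Z) (B.map (actionHom Z))) =
      Nat.card ↥(Z ⊓ Subgroup.centralizer (B : Set G)) := by
  rw [fixedPts_actionModule, Subgroup.card_map_of_injective SemidirectProduct.inl_injective,
    Nat.card_congr (Subgroup.subgroupOfEquivOfLe inf_le_left).toEquiv]

theorem card_map_mul_card_inf_ker {G' : Type*} [Group G'] (f : G →* G') (B : Subgroup G) :
    Nat.card ↥(B.map f) * Nat.card ↥(B ⊓ f.ker) = Nat.card ↥B := by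
  have h := (f.comp B.subtype).ker.index_mul_card
  rw [Subgroup.index_ker, MonoidHom.range_comp, Subgroup.range_subtype] at h
  rw [← h]
  congr 1
  refine Nat.card_congr ?_
  exact ((Subgroup.subgroupOfEquivOfLe (inf_le_left : B ⊓ f.ker ≤ B)).symm.trans
    (MulEquiv.subgroupCongr (by ext x; simp [Subgroup.mem_subgroupOf, x.2]))).toEquiv

variable [Finite G] [Fact p.Prime]

/-- The image of a best offender is a best offender. -/
theorem isBestOffenderOn_map (Z A : Subgroup G) [Z.Normal] (hel : IsElementaryAbelian p A)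
    (hA : IsBestOffenderOn p Z A) :
    IsBestOffenderOn p (actionModule Z) (A.map (actionHom Z)) := by
  have hel' := CfsgLib.LocalP.isElementaryAbelian_iff.mp
    (CfsgLib.LocalP.isElementaryAbelian_map (actionHom Z) hel)
  refine ⟨fun B hB => ?_, ?_, fun a ha => by rw [hel'.2 a ha]; exact one_mem _⟩
  · set B' := A ⊓ B.comap (actionHom Z) with hB'
    have hmap : B'.map (actionHom Z) = B := by
      refine le_antisymm (Subgroup.map_le_iff_le_comap.mpr inf_le_right) fun y hy => ?_
      obtain ⟨a, ha, rfl⟩ := hB hy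
      exact Subgroup.mem_map_of_mem _ (Subgroup.mem_inf.mpr ⟨ha, hy⟩)
    have hker : B' ⊓ (actionHom Z).ker = A ⊓ (actionHom Z).ker := by
      rw [hB', inf_assoc, inf_eq_right.mpr
        (show (actionHom Z).ker ≤ B.comap (actionHom Z) from fun x hx =>
          Subgroup.mem_comap.mpr ((MonoidHom.mem_ker.mp hx).symm ▸ one_mem B))]
    have h1 := card_map_mul_card_inf_ker (actionHom Z) B'
    have h2 := card_map_mul_card_inf_ker (actionHom Z) A
    rw [hker] at h1
    show Nat.card ↥B * Nat.card ↥(fixedPts (actionModule Z) B) ≤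
      Nat.card ↥(A.map (actionHom Z)) * Nat.card ↥(fixedPts (actionModule Z) (A.map (actionHom Z)))
    refine Nat.le_of_mul_le_mul_left ?_
      (Nat.card_pos (α := ↥(A ⊓ (actionHom Z).ker)))
    rw [← hmap, card_fixedPts_actionModule, card_fixedPts_actionModule, ← mul_assoc, ← mul_assoc,
      mul_comm (Nat.card ↥(A ⊓ (actionHom Z).ker)), h1,
      mul_comm (Nat.card ↥(A ⊓ (actionHom Z).ker)), h2]
    exact hA.1 B' inf_le_left
  · rw [Subgroup.commutator_eq_bot_iff_le_centralizer.2 fun x hx =>
      Subgroup.mem_centralizer_iff.mpr fun y hy => hel'.1 y hy x hx]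
    exact bot_le

/-- The setting given by a faithful module for `J(G)` with trivial `p`-core modulo the kernel. -/
theorem setting_of_action (hsep : IsPSolvable p G) (Z : Subgroup G) [Z.Normal]
    (hZ : IsPReducedNormal p Z) :
    ∃ F, Setting p (actionModule Z) ((thompsonSubgroup p G).map (actionHom Z)) F ∧
      (thompsonSubgroup p G).map (actionHom Z) =
        ⨆ A : {A // A ≤ (thompsonSubgroup p G).map (actionHom Z) ∧
          IsBestOffenderOn p (actionModule Z) A}, (A : Subgroup _) := by
  haveI : Finite (MulAut ↥Z) :=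
    Finite.of_injective (fun e : MulAut ↥Z => (e : ↥Z → ↥Z)) DFunLike.coe_injective
  haveI : Finite (SemidirectProduct ↥Z (MulAut ↥Z) (MonoidHom.id (MulAut ↥Z))) :=
    Finite.of_equiv _ SemidirectProduct.equivProd.symm
  obtain ⟨-, hel, hCn, hcore⟩ := hZ
  haveI := hCn
  set C := Subgroup.centralizer (Z : Set G)
  set J := thompsonSubgroup p G with hJ
  haveI : J.Characteristic := CfsgLib.LocalP.thompsonSubgroup_characteristic
  set H := J.map (actionHom Z) with hH
  have helV : IsElementaryAbelian p (actionModule Z) := by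
    rw [actionModule, MonoidHom.range_eq_map]
    refine CfsgLib.LocalP.isElementaryAbelian_map _ (CfsgLib.LocalP.isElementaryAbelian_iff.mpr
      ⟨fun x _ y _ => Subtype.ext ?_, fun x _ => Subtype.ext ?_⟩)
    · exact (CfsgLib.LocalP.isElementaryAbelian_iff.mp hel).1 x x.2 y y.2
    · simpa using (CfsgLib.LocalP.isElementaryAbelian_iff.mp hel).2 x x.2
  have hHV : H ≤ Subgroup.normalizer (actionModule Z : Set _) := by
    rintro _ ⟨g, -, rfl⟩
    have key : ∀ g : G, ∀ v ∈ actionModule Z, actionHom Z g * v * (actionHom Z g)⁻¹ ∈ actionModule Z := by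
      rintro g _ ⟨z, rfl⟩
      exact ⟨_, (actionHom_conj Z g z).symm⟩
    rw [Subgroup.mem_normalizer_iff]
    exact fun v => ⟨key g v, fun h => by simpa [mul_assoc] using key g⁻¹ _ h⟩
  have hf : H ⊓ Subgroup.centralizer (actionModule Z : Set _) = ⊥ := by
    rw [eq_bot_iff]
    intro x hx
    obtain ⟨hxH, hxc⟩ := Subgroup.mem_inf.mp hx
    obtain ⟨g, hg, rfl⟩ := hxH
    rw [Subgroup.mem_bot, actionHom_eq_one_iff, Subgroup.mem_centralizer_iff]
    intro z hz
    have h := Subgroup.mem_centralizer_iff.mp hxc _ ⟨⟨z, hz⟩, rfl⟩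
    have h' := actionHom_conj Z g ⟨z, hz⟩
    rw [← h, mul_inv_cancel_right] at h'
    have h2 := congrArg Subtype.val (SemidirectProduct.inl_injective h')
    rw [MulAut.conjNormal_apply] at h2
    exact eq_mul_inv_iff_mul_eq.mp h2
  set ψ := QuotientGroup.lift C (actionHom Z) (ker_actionHom Z).ge
  have hψ : Function.Injective ψ := by
    refine (injective_iff_map_eq_one ψ).mpr fun x hx => ?_
    obtain ⟨g, rfl⟩ := QuotientGroup.mk'_surjective C x
    exact (QuotientGroup.eq_one_iff g).mpr ((actionHom_eq_one_iff Z).mp hx)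
  set X := J.map (QuotientGroup.mk' C) with hX
  haveI : X.Normal := Subgroup.Normal.map inferInstance _ (QuotientGroup.mk'_surjective C)
  have hXH : X.map ψ = H := by
    rw [hX, hH, Subgroup.map_map]
    rfl
  have hXcore : pCore p ↥X = ⊥ := by
    rw [CfsgLib.Constrained.pCore_subgroup_eq, hcore, Subgroup.bot_subgroupOf]
  let e : ↥X ≃* ↥H := (Subgroup.equivMapOfInjective X ψ hψ).trans (MulEquiv.subgroupCongr hXH)
  have hHcore : pCore p ↥H = ⊥ := by
    rw [← Subgroup.map_eq_bot_iff_of_injective (f := e.symm.toMonoidHom) _ e.symm.injective,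
      ← le_bot_iff, ← hXcore]
    exact CfsgLib.Constrained.le_pCore ((pCore_normal p ↥H).map _ e.symm.surjective)
      (CfsgLib.Constrained.isPGroup_pCore.map _)
  have hHsep : IsPSolvable p ↥H := CfsgLib.Constrained.IsPSolvable.of_mulEquiv
    (CfsgLib.Constrained.IsPSolvable.subgroup (CfsgLib.Constrained.IsPSolvable.quotient hsep C) X) e
  refine ⟨_, Setting.of_pPrimeCore helV hHV hf
    (CfsgLib.TISolvable.centralizer_pPrimeCore_le hHsep hHcore), ?_⟩
  refine le_antisymm ?_ (iSup_le fun A => A.2.1)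
  rw [hH, Subgroup.map_le_iff_le_comap, hJ, thompsonSubgroup]
  refine sSup_le fun A hA => Subgroup.map_le_iff_le_comap.mp ?_
  exact le_iSup_of_le ⟨A.map (actionHom Z), Subgroup.map_mono (CfsgLib.LocalP.le_thompsonSubgroup hA),
    isBestOffenderOn_map Z A hA.1 (Cfsg.Agent.S0606.result Z hel A hA)⟩ le_rfl

/-- The join of the subgroups `Ω₁(Z(S))`. -/
abbrev omegaZJoin (p : ℕ) (G : Type u) [Group G] : Subgroup G :=
  ⨆ S : Sylow p G, omegaOne p ((S : Subgroup G) ⊓ Subgroup.centralizer ((S : Subgroup G) : Set G))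

instance omegaZJoin_normal : (omegaZJoin p G).Normal := by
  refine ⟨fun x hx g => ?_⟩
  have hle : omegaZJoin p G ≤ (omegaZJoin p G).comap (MulAut.conj g).toMonoidHom := by
    refine iSup_le fun S => (Subgroup.closure_le _).mpr fun y hy => ?_
    obtain ⟨hy1, hyp⟩ := hy
    obtain ⟨hyS, hyc⟩ := Subgroup.mem_inf.mp hy1
    refine le_iSup (fun S : Sylow p G => omegaOne p ((S : Subgroup G) ⊓
      Subgroup.centralizer ((S : Subgroup G) : Set G))) (g • S) (Subgroup.subset_closure ⟨?_, ?_⟩)
    · refine Subgroup.mem_inf.mpr ⟨?_, Subgroup.mem_centralizer_iff.mpr fun w hw => ?_⟩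
      · rw [Sylow.coe_subgroup_smul]
        exact Subgroup.smul_mem_pointwise_smul _ _ _ hyS
      · rw [SetLike.mem_coe, Sylow.coe_subgroup_smul] at hw
        obtain ⟨s, hs, rfl⟩ := hw
        show g * s * g⁻¹ * (g * y * g⁻¹) = g * y * g⁻¹ * (g * s * g⁻¹)
        calc g * s * g⁻¹ * (g * y * g⁻¹) = g * (s * y) * g⁻¹ := by group
          _ = g * (y * s) * g⁻¹ := by rw [Subgroup.mem_centralizer_iff.mp hyc s hs]
          _ = _ := by group
    · show (g * y * g⁻¹) ^ p = 1
      rw [conj_pow, hyp]; group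
  exact hle hx

theorem isPReducedNormal_omegaZJoin (hsep : IsPSolvable p G) (hO : pPrimeCore p G = ⊥) :
    IsPReducedNormal p (omegaZJoin p G) := by
  set Q := pCore p G
  have hchar := CfsgLib.Constrained.centralizer_pCore_le hsep hO
  let Y : Subgroup G :=
    { carrier := {x | x ∈ Q ∧ (∀ y ∈ Q, y * x = x * y) ∧ x ^ p = 1}
      one_mem' := ⟨one_mem _, by simp, one_pow _⟩
      mul_mem' := by
        rintro x z ⟨hx, hx1, hx2⟩ ⟨hz, hz1, hz2⟩
        refine ⟨mul_mem hx hz, fun y hy => ?_, ?_⟩
        · exact ((show Commute y x from hx1 y hy).mul_right (hz1 y hy)).eq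
        · rw [(show Commute x z from hz1 x hx).mul_pow, hx2, hz2, one_mul]
      inv_mem' := by
        rintro x ⟨hx, hx1, hx2⟩
        exact ⟨inv_mem hx, fun y hy => ((show Commute y x from hx1 y hy).inv_right).eq,
          by rw [inv_pow, hx2, inv_one]⟩ }
  have hle : omegaZJoin p G ≤ Y := iSup_le fun S => (Subgroup.closure_le _).mpr fun y hy => by
    obtain ⟨hy1, hyp⟩ := hy
    obtain ⟨hyS, hyc⟩ := Subgroup.mem_inf.mp hy1
    have hc : ∀ q ∈ Q, q * y = y * q := fun q hq =>
      Subgroup.mem_centralizer_iff.mp hyc q (CfsgLib.CharP.pCore_le_sylow S hq)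
    exact ⟨hchar (Subgroup.mem_centralizer_iff.mpr hc), hc, hyp⟩
  have hel : IsElementaryAbelian p (omegaZJoin p G) :=
    CfsgLib.LocalP.isElementaryAbelian_iff.mpr
      ⟨fun x hx y hy => (hle hy).2.1 x (hle hx).1, fun x hx => (hle hx).2.2⟩
  refine CfsgLib.CharP.isPReducedNormal_of inferInstance hel fun D hD hCD hpow => ?_
  haveI := hD
  refine Subgroup.le_centralizer_iff.mp (iSup_le fun T => Subgroup.le_centralizer_iff.mp ?_)
  intro d hd
  obtain ⟨c, hc, t, ht, rfl⟩ :=
    CfsgLib.CharP.exists_mul_of_pGroup_mod T Subgroup.normal_centralizer hD hCD hpow d hd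
  refine mul_mem (Subgroup.centralizer_le (le_iSup (fun S : Sylow p G => omegaOne p
    ((S : Subgroup G) ⊓ Subgroup.centralizer ((S : Subgroup G) : Set G))) T) hc) ?_
  have h1 : omegaOne p ((T : Subgroup G) ⊓ Subgroup.centralizer ((T : Subgroup G) : Set G)) ≤
      Subgroup.centralizer ((T : Subgroup G) : Set G) :=
    (Subgroup.closure_le _).mpr fun y hy => (Subgroup.mem_inf.mp hy.1).2
  exact Subgroup.le_centralizer_iff.mp h1 (Subgroup.mem_inf.mp ht).1

/-- If `J(G)` centralizes the join of the `Ω₁(Z(S))` then the factorization holds. -/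
theorem isThompsonFactorizable_of_le
    (h : thompsonSubgroup p G ≤ Subgroup.centralizer (omegaZJoin p G : Set G)) :
    IsThompsonFactorizable p G := by
  intro S g
  set C := Subgroup.centralizer (omegaZJoin p G : Set G)
  haveI : C.Normal := Subgroup.normal_centralizer
  obtain ⟨n, hn, c, hc, hg⟩ := CfsgLib.GlaubermanZJ.exists_frattini S C g⁻¹
  have hJS : thompsonSubgroupOf p (S : Subgroup G) ≤ C := by
    refine le_trans ?_ h
    rw [Cfsg.Agent.S0604.result (p := p) (G := G)]
    exact le_iSup (fun S : Sylow p G => thompsonSubgroupOf p (S : Subgroup G)) S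
  have heq := CfsgLib.LocalP.thompsonSubgroupOf_eq_of_le (p := p)
    (inf_le_left : (S : Subgroup G) ⊓ C ≤ S)
    (le_inf (CfsgLib.LocalP.thompsonSubgroupOf_le _) hJS)
  refine ⟨1, one_mem _, c⁻¹, inv_mem (Subgroup.centralizer_le (le_iSup (fun S : Sylow p G =>
    omegaOne p ((S : Subgroup G) ⊓ Subgroup.centralizer ((S : Subgroup G) : Set G))) S) hc), n⁻¹, ?_, ?_⟩
  · rw [← heq]
    exact inv_mem (CfsgLib.LocalP.le_normalizer_thompsonSubgroupOf _ hn)
  · rw [one_mul, ← mul_inv_rev, ← hg, inv_inv]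

end CfsgLib.FFModule
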